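import Mathlib

/-!
A solvable group generated by a class of involutions containing three pairwise commuting
involutions with central product is abelian.
-/

set_option autoImplicit false

namespace Cfsg.Agent.RankThree

open scoped commutatorElement

variable {Q : Type*} [Group Q]

theorem mem_or_mul_mem {a : Q} (ha : a * a = 1) (B : Subgroup Q)
    (hB : ∀ x ∈ B, a * x * a = x⁻¹) (hgen : Subgroup.closure (conjugatesOf a) = ⊤)
    (h : ∀ d ∈ conjugatesOf a, a * d ∈ B) (x : Q) : x ∈ B ∨ a * x ∈ B := by
  have hai : a⁻¹ = a := inv_eq_of_mul_eq_one_left ha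
  have hx : x ∈ Subgroup.closure (conjugatesOf a) := by rw [hgen]; trivial
  induction hx using Subgroup.closure_induction with
  | mem d hd => exact Or.inr (h d hd)
  | one => exact Or.inl (one_mem _)
  | mul x y _ _ hx hy =>
    rcases hx with hx | hx <;> rcases hy with hy | hy
    · exact Or.inl (mul_mem hx hy)
    · right
      have : a * (x * y) = x⁻¹ * (a * y) := by
        rw [← hB x hx]
        calc a * (x * y) = a * x * (1 : Q) * y := by group
          _ = a * x * a * (a * y) := by rw [← ha]; group
      rw [this]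
      exact mul_mem (inv_mem hx) hy
    · right
      rw [← mul_assoc]
      exact mul_mem hx hy
    · left
      have : x * y = (a * x)⁻¹ * (a * y) := by
        rw [← hB _ hx]
        calc x * y = (a * a) * x * (a * a) * y := by rw [ha]; group
          _ = a * (a * x) * a * (a * y) := by group
      rw [this]
      exact mul_mem (inv_mem hx) hy
  | inv x _ hx =>
    rcases hx with hx | hx
    · exact Or.inl (inv_mem hx)
    · right
      have h1 := hB _ hx
      have h2 : a * x⁻¹ = a * x := by
        have : a * (a * x) * a = (a * x)⁻¹ := h1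
        have h3 : x * a = x⁻¹ * a := by
          calc x * a = (a * a) * x * a := by rw [ha]; group
            _ = a * (a * x) * a := by group
            _ = (a * x)⁻¹ := h1
            _ = x⁻¹ * a := by rw [mul_inv_rev, hai]
        rw [← mul_right_cancel h3]
      rw [h2]
      exact hx

/-- In a finite group with abelian commutator subgroup generated by the class of the involution
`a`, the only conjugate of `a` commuting with `a` is `a` itself. -/
theorem eq_of_commute_of_metabelian [Finite Q] {a : Q} (ha : a * a = 1)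
    (hgen : Subgroup.closure (conjugatesOf a) = ⊤)
    (hab : ∀ x ∈ commutator Q, ∀ y ∈ commutator Q, x * y = y * x)
    {c : Q} (hc : c ∈ conjugatesOf a) (hac : a * c = c * a) : c = a := by
  have hai : a⁻¹ = a := inv_eq_of_mul_eq_one_left ha
  by_cases ha1 : a = 1
  · subst ha1
    have hc' : IsConj 1 c := hc
    rw [isConj_iff] at hc'
    obtain ⟨g, hg⟩ := hc'
    simp at hg
    exact hg.symm
  -- the subgroup of elements of the commutator subgroup inverted by `a`
  let B : Subgroup Q :=
    { carrier := {x | x ∈ commutator Q ∧ a * x * a = x⁻¹}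
      one_mem' := ⟨one_mem _, by simp [ha]⟩
      mul_mem' := by
        rintro x y ⟨hx, hx'⟩ ⟨hy, hy'⟩
        refine ⟨mul_mem hx hy, ?_⟩
        calc a * (x * y) * a = (a * x * a) * (a⁻¹ * a⁻¹) * (a * y * a) := by group
          _ = x⁻¹ * y⁻¹ := by rw [hx', hy', hai, ha]; group
          _ = (x * y)⁻¹ := by rw [mul_inv_rev]; exact hab _ (inv_mem hx) _ (inv_mem hy)
      inv_mem' := by
        rintro x ⟨hx, hx'⟩
        refine ⟨inv_mem hx, ?_⟩
        have := congrArg (fun z => z⁻¹) hx'
        simpa [mul_inv_rev, hai, mul_assoc] using this }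
  have hBi : ∀ x ∈ B, a * x * a = x⁻¹ := fun x hx => hx.2
  have hBc : ∀ x ∈ B, ∀ y ∈ B, x * y = y * x := fun x hx y hy => hab x hx.1 y hy.1
  have hconj : ∀ d ∈ conjugatesOf a, ∃ g : Q, g * a * g⁻¹ = d := by
    intro d hd
    have : IsConj a d := hd
    exact isConj_iff.1 this
  have hadB : ∀ d ∈ conjugatesOf a, a * d ∈ B := by
    intro d hd
    obtain ⟨g, rfl⟩ := hconj d hd
    constructor
    · have : a * (g * a * g⁻¹) = ⁅a, g⁆ := by rw [commutatorElement_def, hai]; group
      rw [this]
      exact Subgroup.commutator_mem_commutator (Subgroup.mem_top _) (Subgroup.mem_top _)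
    · rw [show a * (a * (g * a * g⁻¹)) * a = (a * a) * (g * a * g⁻¹ * a) by group, ha]
      rw [mul_inv_rev, hai, mul_inv_rev, mul_inv_rev, inv_inv, hai]
      group
  have hQ := mem_or_mul_mem ha B hBi hgen hadB
  have haB : a ∉ B := by
    intro h
    have hall : ∀ x : Q, x ∈ B := by
      intro x
      rcases hQ x with h' | h'
      · exact h'
      · have : x = a⁻¹ * (a * x) := by group
        rw [this]
        exact mul_mem (inv_mem h) h'
    have hcomm : commutator Q = ⊥ := by
      rw [commutator_def, Subgroup.commutator_eq_bot_iff_le_centralizer]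
      intro x _
      rw [Subgroup.mem_centralizer_iff]
      intro y _
      exact hBc _ (hall y) _ (hall x)
    have : a ∈ commutator Q := h.1
    rw [hcomm, Subgroup.mem_bot] at this
    exact ha1 this
  let B2 : Subgroup Q :=
    { carrier := {x | ∃ g ∈ B, g * g = x}
      one_mem' := ⟨1, one_mem _, by simp⟩
      mul_mem' := by
        rintro x y ⟨g, hg, rfl⟩ ⟨h, hh, rfl⟩
        refine ⟨g * h, mul_mem hg hh, ?_⟩
        calc g * h * (g * h) = g * (h * g) * h := by group
          _ = g * (g * h) * h := by rw [hBc h hh g hg]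
          _ = g * g * (h * h) := by group
      inv_mem' := by
        rintro x ⟨g, hg, rfl⟩
        exact ⟨g⁻¹, inv_mem hg, by group⟩ }
  have hB2 : ∀ x ∈ B2, x ∈ B := by
    rintro x ⟨g, hg, rfl⟩
    exact mul_mem hg hg
  have hadB2 : ∀ d ∈ conjugatesOf a, a * d ∈ B2 := by
    intro d hd
    obtain ⟨g, rfl⟩ := hconj d hd
    rcases hQ g with h | h
    · refine ⟨g⁻¹, inv_mem h, ?_⟩
      have := hBi g h
      rw [show a * (g * a * g⁻¹) = (a * g * a) * g⁻¹ by group, this]
    · refine ⟨a * g, h, ?_⟩
      have h1 := hBi _ h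
      have h2 : g * a = g⁻¹ * a := by
        calc g * a = (a * a) * g * a := by rw [ha, one_mul]
          _ = a * (a * g) * a := by group
          _ = (a * g)⁻¹ := h1
          _ = g⁻¹ * a := by rw [mul_inv_rev, hai]
      have h3 : g = g⁻¹ := mul_right_cancel h2
      rw [← h3]
      group
  have hQ2 := mem_or_mul_mem ha B2 (fun x hx => hBi x (hB2 x hx)) hgen hadB2
  have hsurj : ∀ b ∈ B, ∃ g ∈ B, g * g = b := by
    intro b hb
    rcases hQ2 b with h | h
    · exact h
    · exfalso
      apply haB
      have : a = (a * b) * b⁻¹ := by group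
      rw [this]
      exact mul_mem (hB2 _ h) (inv_mem hb)
  have hinj : Function.Injective (fun b : B => b * b) := by
    apply Finite.injective_iff_surjective.2
    rintro ⟨b, hb⟩
    obtain ⟨g, hg, hgg⟩ := hsurj b hb
    exact ⟨⟨g, hg⟩, Subtype.ext hgg⟩
  have hk := hadB c hc
  have hk2 : (a * c) * (a * c) = 1 := by
    have h1 := hBi _ hk
    have h2 : a * (a * c) * a = a * c := by
      rw [hac, show a * (c * a) * a = a * c * (a * a) by group, ha, mul_one]
      exact hac
    rw [h2] at h1
    nth_rewrite 2 [h1]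
    simp
  have h3 : (⟨a * c, hk⟩ : B) = 1 := by
    apply hinj
    apply Subtype.ext
    simpa using hk2
  have h4 : a * c = 1 := congrArg Subtype.val h3
  have : c = a⁻¹ := eq_inv_of_mul_eq_one_right h4
  rw [this, hai]

/-- A finite solvable group generated by a class of involutions containing three pairwise
commuting elements with central product is abelian. -/
theorem comm_of_solvable [Finite Q] (hs : Group.IsSolvable Q) {a c y : Q} (ha : a * a = 1)
    (hgen : Subgroup.closure (conjugatesOf a) = ⊤) (hc : c ∈ conjugatesOf a)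
    (hy : y ∈ conjugatesOf a) (hac : a * c = c * a) (hay : a * y = y * a)
    (hz : ∀ g : Q, a * c * y * g = g * (a * c * y)) (g h : Q) : g * h = h * g := by
  have hconj : ∀ d ∈ conjugatesOf a, ∃ g : Q, g * a * g⁻¹ = d := by
    intro d hd
    have : IsConj a d := hd
    exact isConj_iff.1 this
  set K : Subgroup Q := commutator Q with hK
  set L : Subgroup Q := ⁅K, K⁆ with hL
  have : L.Normal := inferInstance
  let π : Q →* Q ⧸ L := QuotientGroup.mk' L
  have hπs : Function.Surjective π := QuotientGroup.mk'_surjective L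
  have hπ : ∀ x : Q, π x = 1 ↔ x ∈ L := fun x => QuotientGroup.eq_one_iff x
  have hconjπ : ∀ d ∈ conjugatesOf a, π d ∈ conjugatesOf (π a) := by
    intro d hd
    obtain ⟨g, rfl⟩ := hconj d hd
    have : IsConj (π a) (π (g * a * g⁻¹)) := isConj_iff.2 ⟨π g, by simp⟩
    exact this
  have hgenπ : Subgroup.closure (conjugatesOf (π a)) = ⊤ := by
    rw [eq_top_iff]
    intro x _
    obtain ⟨x, rfl⟩ := hπs x
    have hx : x ∈ Subgroup.closure (conjugatesOf a) := by rw [hgen]; trivial
    have : π x ∈ (Subgroup.closure (conjugatesOf a)).map π := ⟨x, hx, rfl⟩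
    rw [MonoidHom.map_closure] at this
    refine Subgroup.closure_mono ?_ this
    rintro _ ⟨d, hd, rfl⟩
    exact hconjπ d hd
  have hKπ : ∀ x ∈ commutator (Q ⧸ L), ∃ k ∈ K, π k = x := by
    intro x hx
    have : (K.map π) = commutator (Q ⧸ L) := by
      rw [hK, commutator_def, Subgroup.map_commutator, commutator_def]
      rw [Subgroup.map_top_of_surjective _ hπs]
    rw [← this] at hx
    obtain ⟨k, hk, hk'⟩ := hx
    exact ⟨k, hk, hk'⟩
  have hab : ∀ x ∈ commutator (Q ⧸ L), ∀ y ∈ commutator (Q ⧸ L), x * y = y * x := by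
    intro x hx y hy
    obtain ⟨k, hk, rfl⟩ := hKπ x hx
    obtain ⟨l, hl, rfl⟩ := hKπ y hy
    have h1 : π ⁅k, l⁆ = 1 := (hπ _).2 (Subgroup.commutator_mem_commutator hk hl)
    rw [map_commutatorElement] at h1
    exact commutatorElement_eq_one_iff_mul_comm.1 h1
  have haπ : π a * π a = 1 := by rw [← map_mul, ha, map_one]
  have hcπ : π c = π a := by
    apply eq_of_commute_of_metabelian haπ hgenπ hab (hconjπ c hc)
    rw [← map_mul, hac, map_mul]
  have hyπ : π y = π a := by
    apply eq_of_commute_of_metabelian haπ hgenπ hab (hconjπ y hy)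
    rw [← map_mul, hay, map_mul]
  have hcen : ∀ x : Q ⧸ L, π a * x = x * π a := by
    intro x
    obtain ⟨x, rfl⟩ := hπs x
    have := congrArg π (hz x)
    simp only [map_mul, hcπ, hyπ, haπ, one_mul] at this
    exact this
  have hcomm : ∀ x y : Q ⧸ L, x * y = y * x := by
    have h1 : ∀ x : Q ⧸ L, x ∈ Subgroup.zpowers (π a) := by
      intro x
      have hx : x ∈ Subgroup.closure (conjugatesOf (π a)) := by rw [hgenπ]; trivial
      have h2 : Subgroup.closure (conjugatesOf (π a)) ≤ Subgroup.zpowers (π a) := by
        rw [Subgroup.closure_le]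
        intro d hd
        have : IsConj (π a) d := hd
        obtain ⟨g, hg⟩ := isConj_iff.1 this
        have : d = π a := by
          rw [← hg, ← hcen g, mul_assoc, mul_inv_cancel, mul_one]
        rw [this]
        exact Subgroup.mem_zpowers _
      exact h2 hx
    intro x y
    obtain ⟨i, hi⟩ := h1 x
    obtain ⟨j, hj⟩ := h1 y
    rw [← hi, ← hj]
    simp only
    rw [← zpow_add, ← zpow_add, add_comm]
  have hKL : K ≤ L := by
    rw [hK, commutator_def, Subgroup.commutator_le]
    intro x _ y _
    rw [← hπ, map_commutatorElement]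
    exact commutatorElement_eq_one_iff_mul_comm.2 (hcomm _ _)
  have hKbot : K = ⊥ := by
    by_contra hne
    have := hs.commutator_lt_of_ne_bot hne
    exact absurd hKL (not_le_of_gt this)
  have : ⁅g, h⁆ ∈ K := Subgroup.commutator_mem_commutator (Subgroup.mem_top _) (Subgroup.mem_top _)
  rw [hKbot, Subgroup.mem_bot] at this
  exact commutatorElement_eq_one_iff_mul_comm.1 this

/-- The form for subsets generating a solvable subgroup. -/
theorem commute_of_closure_solvable [Finite Q] {S : Set Q}
    (hs : Group.IsSolvable (Subgroup.closure S)) {a c y b : Q} (haS : a ∈ S) (hcS : c ∈ S)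
    (hyS : y ∈ S) (hbS : b ∈ S) (ha : a * a = 1)
    (hgen : ∀ s ∈ S, ∃ h ∈ Subgroup.closure S, h * a * h⁻¹ = s)
    (hac : a * c = c * a) (hay : a * y = y * a)
    (hz : ∀ s ∈ S, a * c * y * s = s * (a * c * y)) : a * b = b * a := by
  set H := Subgroup.closure S with hH
  have hsub : ∀ s ∈ S, s ∈ H := fun s hs => Subgroup.subset_closure hs
  have hconj : ∀ s (hsS : s ∈ S), (⟨s, hsub s hsS⟩ : H) ∈ conjugatesOf (⟨a, hsub a haS⟩ : H) := by
    intro s hsS
    obtain ⟨h, hh, hs'⟩ := hgen s hsS
    have : IsConj (⟨a, hsub a haS⟩ : H) ⟨s, hsub s hsS⟩ :=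
      isConj_iff.2 ⟨⟨h, hh⟩, Subtype.ext hs'⟩
    exact this
  have hgen' : Subgroup.closure (conjugatesOf (⟨a, hsub a haS⟩ : H)) = ⊤ := by
    rw [eq_top_iff]
    rw [← Subgroup.closure_closure_coe_preimage (k := S), Subgroup.closure_le]
    rintro ⟨s, hs1⟩ hs2
    exact Subgroup.subset_closure (hconj s hs2)
  have hz' : ∀ g ∈ H, a * c * y * g = g * (a * c * y) := by
    intro g hg
    induction hg using Subgroup.closure_induction with
    | mem s hs => exact hz s hs
    | one => simp
    | mul x y' _ _ hx hy =>
      calc a * c * y * (x * y') = (a * c * y * x) * y' := by group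
        _ = x * (a * c * y * y') := by rw [hx]; group
        _ = x * y' * (a * c * y) := by rw [hy]; group
    | inv x _ hx =>
      rw [eq_inv_mul_iff_mul_eq, ← mul_assoc, ← hx, mul_assoc, mul_inv_cancel, mul_one]
  have := comm_of_solvable hs (a := (⟨a, hsub a haS⟩ : H)) (c := ⟨c, hsub c hcS⟩)
    (y := ⟨y, hsub y hyS⟩) (Subtype.ext ha) hgen' (hconj c hcS) (hconj y hyS) (Subtype.ext hac)
    (Subtype.ext hay) (by
      rintro ⟨g, hg⟩
      exact Subtype.ext (hz' g hg)) ⟨a, hsub a haS⟩ ⟨b, hsub b hbS⟩
  exact congrArg Subtype.val this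

end Cfsg.Agent.RankThree
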