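import Mathlib
import Cfsg.Agent.RankThree.Meta

/-!
Normal sets of involutions all of whose products have order 1, 2 or `p`, `p` an odd prime.
-/

set_option autoImplicit false

namespace Cfsg.Agent.RankThree

variable {G : Type*} [Group G]

/-- `D` is a normal set of involutions, any two of which commute or have product of order
dividing `p`. -/
structure PSet (p : ℕ) (D : Set G) : Prop where
  ne : ∀ d ∈ D, d ≠ 1
  sq : ∀ d ∈ D, d * d = 1
  conj : ∀ d ∈ D, ∀ g : G, g * d * g⁻¹ ∈ D
  prod : ∀ d ∈ D, ∀ e ∈ D, d * e = e * d ∨ (d * e) ^ p = 1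

namespace PSet

variable {p : ℕ} {D : Set G}

theorem inv (h : PSet p D) {d : G} (hd : d ∈ D) : d⁻¹ = d :=
  inv_eq_of_mul_eq_one_left (h.sq d hd)

theorem conj' (h : PSet p D) {d e : G} (hd : d ∈ D) (he : e ∈ D) : e * d * e ∈ D := by
  have := h.conj d hd e
  rwa [h.inv he] at this

end PSet

/-- `(x y)^i x` is a conjugate of `x` or of ... : reflections. -/
theorem refl_conj {x y : G} (hx : x * x = 1) (hy : y * y = 1) (j : ℕ) :
    (y * x) ^ j * x * ((y * x) ^ j)⁻¹ = (y * x) ^ (2 * j) * x := by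
  have h1 : ∀ j : ℕ, x * ((y * x) ^ j)⁻¹ = (y * x) ^ j * x := by
    intro j
    induction j with
    | zero => simp
    | succ j ih =>
      have hxi : x⁻¹ = x := inv_eq_of_mul_eq_one_left hx
      have hyi : y⁻¹ = y := inv_eq_of_mul_eq_one_left hy
      rw [pow_succ, mul_inv_rev, mul_inv_rev, hxi, hyi]
      calc x * (x * y * ((y * x) ^ j)⁻¹) = (x * x) * y * ((y * x) ^ j)⁻¹ := by group
        _ = y * (x * x) * ((y * x) ^ j)⁻¹ := by rw [hx]; group
        _ = y * x * (x * ((y * x) ^ j)⁻¹) := by group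
        _ = y * x * ((y * x) ^ j * x) := by rw [ih]
        _ = (y * x) ^ (j + 1) * x := by rw [pow_succ']; group
        _ = (y * x) ^ j * (y * x) * x := by rw [pow_succ]
  rw [mul_assoc, h1, ← mul_assoc, ← pow_add, two_mul]

/-- two involutions with product of odd order are conjugate -/
theorem conj_of_pow {x y : G} (hx : x * x = 1) (hy : y * y = 1) {p : ℕ} (hp : Odd p)
    (h : (y * x) ^ p = 1) : (y * x) ^ ((p + 1) / 2) * x * ((y * x) ^ ((p + 1) / 2))⁻¹ = y := by
  obtain ⟨k, rfl⟩ := hp
  rw [refl_conj hx hy]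
  have : 2 * ((2 * k + 1 + 1) / 2) = (2 * k + 1) + 1 := by omega
  rw [this, pow_succ, h, one_mul, mul_assoc, hx, mul_one]

theorem mul_pow_swap {x y : G} (hx : x * x = 1) (hy : y * y = 1) {n : ℕ}
    (h : (x * y) ^ n = 1) : (y * x) ^ n = 1 := by
  have hxi : x⁻¹ = x := inv_eq_of_mul_eq_one_left hx
  have hyi : y⁻¹ = y := inv_eq_of_mul_eq_one_left hy
  have : y * x = (x * y)⁻¹ := by rw [mul_inv_rev, hxi, hyi]
  rw [this, inv_pow, h, inv_one]

namespace PSet

variable {p : ℕ} {D : Set G}

/-- all reflections `(y x)^i x` lie in `D` -/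
theorem refl_mem (h : PSet p D) {x y : G} (hx : x ∈ D) (hy : y ∈ D) (i : ℕ) :
    (y * x) ^ i * x ∈ D := by
  rcases Nat.even_or_odd' i with ⟨j, rfl | rfl⟩
  · rw [← refl_conj (h.sq x hx) (h.sq y hy)]
    exact h.conj x hx _
  · have h1 : (y * x) ^ (2 * j + 1) * x = (x * y) ^ 0 * ((y * x) ^ j * y * ((y * x) ^ j)⁻¹) := by
      have h2 := refl_conj (h.sq x hx) (h.sq y hy) j
      have hx' := h.inv hx
      have hy' := h.inv hy
      have h3 : (y * x) ^ j * x * ((y * x) ^ j)⁻¹ * (x * y) = (y * x) ^ (2 * j) * y := by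
        rw [h2, ← mul_assoc, mul_assoc _ x x, h.sq x hx, mul_one]
      have h4 : Commute ((y * x) ^ j)⁻¹ (x * y) := by
        have : x * y = (y * x)⁻¹ := by rw [mul_inv_rev, hx', hy']
        rw [this]
        exact ((Commute.refl (y * x)).pow_left j).inv_inv
      rw [mul_assoc _ (((y * x) ^ j)⁻¹), h4.eq] at h3
      have h5 : (y * x) ^ j * x * (x * y * ((y * x) ^ j)⁻¹) =
          (y * x) ^ j * y * ((y * x) ^ j)⁻¹ := by
        calc (y * x) ^ j * x * (x * y * ((y * x) ^ j)⁻¹) =
            (y * x) ^ j * (x * x) * y * ((y * x) ^ j)⁻¹ := by group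
          _ = _ := by rw [h.sq x hx, mul_one]
      rw [h5] at h3
      rw [pow_zero, one_mul, h3, pow_succ, mul_assoc, mul_assoc y, h.sq x hx, mul_one]
    rw [h1, pow_zero, one_mul]
    exact h.conj y hy _

theorem conj_of_not_commute (h : PSet p D) (hp : Odd p) {x y : G} (hx : x ∈ D) (hy : y ∈ D)
    (hxy : x * y ≠ y * x) :
    ∃ g ∈ Subgroup.closure ({x, y} : Set G), g * x * g⁻¹ = y := by
  have h1 : (y * x) ^ p = 1 := (h.prod y hy x hx).resolve_left (fun h' => hxy h'.symm)
  refine ⟨(y * x) ^ ((p + 1) / 2), ?_, conj_of_pow (h.sq x hx) (h.sq y hy) hp h1⟩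
  apply pow_mem
  exact mul_mem (Subgroup.subset_closure (by simp)) (Subgroup.subset_closure (by simp))

theorem pow_eq_one (h : PSet p D) {x y : G} (hx : x ∈ D) (hy : y ∈ D)
    (hxy : x * y ≠ y * x) : (x * y) ^ p = 1 := (h.prod x hx y hy).resolve_left hxy

/-- Step 0: if `x ≠ y` commute and `b` commutes with neither, then `b` does not commute with
`x y`. -/
theorem step0 (h : PSet p D) (hp : Odd p) {x y b : G} (hx : x ∈ D) (hy : y ∈ D) (hb : b ∈ D)
    (hne : x ≠ y) (hbx : b * x ≠ x * b) (hby : b * y ≠ y * b) :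
    b * (x * y) ≠ (x * y) * b := by
  intro hc
  apply hne
  have hxx := h.sq x hx
  have hyy := h.sq y hy
  have hbb := h.sq b hb
  -- `(b x)^2 = (b y)^2`
  have h1 : (b * x) * (b * x) = (b * y) * (b * y) := by
    have h2 : b * (x * y) * b = x * y := by rw [hc, mul_assoc, hbb, mul_one]
    rw [← mul_inv_eq_one, mul_inv_rev, mul_inv_rev, h.inv hb, h.inv hy]
    calc b * x * (b * x) * (y * b * (y * b)) = b * x * (b * (x * y) * b) * (y * b) := by group
      _ = b * (x * x) * (y * y) * b := by rw [h2]; group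
      _ = 1 := by rw [hxx, hyy, mul_one, mul_one, hbb]
  have h3 := h.pow_eq_one hb hx hbx
  have h4 := h.pow_eq_one hb hy hby
  obtain ⟨k, rfl⟩ := hp
  have h5 : b * x = b * y := by
    have h6 : ((b * x) * (b * x)) ^ (k + 1) = b * x := by
      rw [← pow_two, ← pow_mul, show 2 * (k + 1) = (2 * k + 1) + 1 by ring, pow_succ, h3, one_mul]
    have h7 : ((b * y) * (b * y)) ^ (k + 1) = b * y := by
      rw [← pow_two, ← pow_mul, show 2 * (k + 1) = (2 * k + 1) + 1 by ring, pow_succ, h4, one_mul]
    rw [← h6, ← h7, h1]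
  exact mul_left_cancel h5

/-- three commuting elements `x, y, xy` of `D` commute with the same elements of `D`. -/
theorem twin_of_mem (h : PSet p D) (hp : Odd p) {x y e : G} (hx : x ∈ D) (hy : y ∈ D)
    (he : e ∈ D) (hxy : x * y = y * x) (ht : x * y ∈ D) (hex : e * x = x * e) :
    e * y = y * e := by
  by_contra hey
  have het : e * (x * y) ≠ (x * y) * e := by
    intro h1
    apply hey
    have : x * (e * y) = x * (y * e) := by
      rw [← mul_assoc, ← hex, mul_assoc, h1, mul_assoc]
    exact mul_left_cancel this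
  have hxx := h.sq x hx
  have hyy := h.sq y hy
  have h2 : y ≠ x * y := by
    intro h1
    exact h.ne x hx (by simpa using h1.symm)
  have h3 : y * (x * y) = (x * y) * y := by
    rw [← mul_assoc, ← hxy]
  apply h.step0 hp hy ht he h2 hey het
  have h4 : y * (x * y) = x := by rw [h3, mul_assoc, hyy, mul_one]
  rw [h4, hex]

/-- The element `z = (b t)^p` for `t = a c` with `a, c` commuting and `b` commuting with neither:
if `b` and `b^t` have product of order dividing `p`, then `z` is central in `⟨a, b, c⟩` and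
`a c z` lies in `D`, and commutes with `a` and `c` and not with `b`. -/
theorem type_two (h : PSet p D) (hp : Odd p) {a b c : G} (ha : a ∈ D) (hb : b ∈ D) (hc : c ∈ D)
    (hac : a * c = c * a) (hne : a ≠ c) (hba : b * a ≠ a * b) (hbc : b * c ≠ c * b)
    (h2 : b * ((a * c) * b * (a * c)) ≠ ((a * c) * b * (a * c)) * b) :
    ∃ z y : G, z * z = 1 ∧ z * a = a * z ∧ z * b = b * z ∧ z * c = c * z ∧ y ∈ D ∧
      y = a * c * z ∧ a * y = y * a ∧ c * y = y * c ∧ b * y ≠ y * b := by
  have haa := h.sq a ha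
  have hbb := h.sq b hb
  have hcc := h.sq c hc
  have htt : (a * c) * (a * c) = 1 := by
    calc (a * c) * (a * c) = a * (c * a) * c := by group
      _ = (a * a) * (c * c) := by rw [← hac]; group
      _ = 1 := by rw [haa, hcc, mul_one]
  have hbt : b * (a * c) ≠ (a * c) * b := h.step0 hp ha hc hb hne hba hbc
  obtain ⟨t, ht⟩ : ∃ t, t = a * c := ⟨_, rfl⟩
  rw [← ht] at h2 htt hbt
  have hti : t⁻¹ = t := inv_eq_of_mul_eq_one_left htt
  have hbi := h.inv hb
  have htD : t * b * t ∈ D := by
    have := h.conj b hb t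
    rwa [hti] at this
  have h3 : (b * (t * b * t)) ^ p = 1 := h.pow_eq_one hb htD h2
  obtain ⟨r, hr⟩ : ∃ r, r = b * t := ⟨_, rfl⟩
  have h4 : (r ^ p) * (r ^ p) = 1 := by
    rw [← pow_two, ← pow_mul, mul_comm, pow_mul]
    rw [show r ^ 2 = b * (t * b * t) by rw [hr, pow_two]; group]
    exact h3
  have hrb : b * r * b = r⁻¹ := by
    rw [hr, mul_inv_rev, hti, hbi, ← mul_assoc, hbb, one_mul]
  have hrt : t * r * t = r⁻¹ := by
    rw [hr, mul_inv_rev, hti, hbi]
    calc t * (b * t) * t = t * b * (t * t) := by group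
      _ = t * b := by rw [htt, mul_one]
  have hzi : (r ^ p)⁻¹ = r ^ p := inv_eq_of_mul_eq_one_left h4
  have hconjpow : ∀ (u : G), u * u = 1 → u * r * u = r⁻¹ → ∀ n : ℕ, u * r ^ n * u = (r ^ n)⁻¹ := by
    intro u hu hur n
    have hui : u⁻¹ = u := inv_eq_of_mul_eq_one_left hu
    have := conj_pow (a := u) (b := r) (i := n)
    rw [hui] at this
    rw [← this, hur, inv_pow]
  have hzb : r ^ p * b = b * r ^ p := by
    have := hconjpow b hbb hrb p
    rw [hzi] at this
    calc r ^ p * b = (b * r ^ p * b) * b := by rw [this]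
      _ = b * r ^ p * (b * b) := by group
      _ = b * r ^ p := by rw [hbb, mul_one]
  have hzt : r ^ p * t = t * r ^ p := by
    have := hconjpow t htt hrt p
    rw [hzi] at this
    calc r ^ p * t = (t * r ^ p * t) * t := by rw [this]
      _ = t * r ^ p * (t * t) := by group
      _ = t * r ^ p := by rw [htt, mul_one]
  -- `y = t z` is conjugate to `b`
  obtain ⟨k, hk⟩ := hp
  have hy : t * r ^ p ∈ D := by
    have h5 : t * r ^ p = (r ^ (k + 1))⁻¹ * b * ((r ^ (k + 1))⁻¹)⁻¹ := by
      have h6 := hconjpow b hbb hrb (k + 1)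
      rw [inv_inv, ← h6]
      have h7 : t = b * r := by rw [hr, ← mul_assoc, hbb, one_mul]
      calc t * r ^ p = b * r * r ^ p := by rw [← h7]
        _ = b * (r * r ^ p) := by group
        _ = b * (r ^ (k + 1) * r ^ (k + 1)) := by
          rw [← pow_succ', ← pow_add]
          congr 2
          omega
        _ = b * r ^ (k + 1) * (b * b) * r ^ (k + 1) := by rw [hbb]; group
        _ = _ := by group
    rw [h5]
    exact h.conj b hb _
  have hyb : b * (t * r ^ p) ≠ (t * r ^ p) * b := by
    intro h8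
    apply hbt
    have : (b * t) * r ^ p = (t * b) * r ^ p := by
      rw [mul_assoc, h8, mul_assoc, hzb, mul_assoc]
    exact mul_right_cancel this
  have hyt : (t * r ^ p) * t = t * (t * r ^ p) := by
    rw [mul_assoc, hzt]
  have hya : a * (t * r ^ p) = (t * r ^ p) * a ∧ c * (t * r ^ p) = (t * r ^ p) * c := by
    have hpo : Odd p := ⟨k, hk⟩
    have h9 : (t * r ^ p) * a = a * (t * r ^ p) → (t * r ^ p) * c = c * (t * r ^ p) := by
      intro h10
      have : a * ((t * r ^ p) * c) = a * (c * (t * r ^ p)) := by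
        calc a * ((t * r ^ p) * c) = (a * (t * r ^ p)) * c := by group
          _ = (t * r ^ p) * (a * c) := by rw [← h10]; group
          _ = (a * c) * (t * r ^ p) := by rw [← ht, hyt]
          _ = a * (c * (t * r ^ p)) := by group
      exact mul_left_cancel this
    have h10 : (t * r ^ p) * c = c * (t * r ^ p) → (t * r ^ p) * a = a * (t * r ^ p) := by
      intro h10
      have h11 : t = c * a := by rw [ht, hac]
      have : c * ((t * r ^ p) * a) = c * (a * (t * r ^ p)) := by
        calc c * ((t * r ^ p) * a) = (c * (t * r ^ p)) * a := by group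
          _ = (t * r ^ p) * (c * a) := by rw [← h10]; group
          _ = (c * a) * (t * r ^ p) := by rw [← h11, hyt]
          _ = c * (a * (t * r ^ p)) := by group
      exact mul_left_cancel this
    by_cases h12 : (t * r ^ p) * a = a * (t * r ^ p)
    · exact ⟨h12.symm, (h9 h12).symm⟩
    · exfalso
      have h13 : (t * r ^ p) * c ≠ c * (t * r ^ p) := fun h14 => h12 (h10 h14)
      refine h.step0 hpo ha hc hy hne h12 h13 ?_
      rw [← ht]
      exact hyt
  have hz_eq : r ^ p = t * (t * r ^ p) := by rw [← mul_assoc, htt, one_mul]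
  have hta : a * t = t * a := by rw [ht, mul_assoc, ← hac]
  have htc : c * t = t * c := by rw [ht, ← mul_assoc, ← hac, mul_assoc]
  refine ⟨r ^ p, t * r ^ p, h4, ?_, hzb, ?_, hy, by rw [ht], hya.1, hya.2, hyb⟩
  · rw [hz_eq]
    calc t * (t * r ^ p) * a = t * (a * (t * r ^ p)) := by rw [mul_assoc, hya.1]
      _ = (a * t) * (t * r ^ p) := by rw [hta]; group
      _ = a * (t * (t * r ^ p)) := by group
  · rw [hz_eq]
    calc t * (t * r ^ p) * c = t * (c * (t * r ^ p)) := by rw [mul_assoc, hya.2]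
      _ = (c * t) * (t * r ^ p) := by rw [htc]; group
      _ = c * (t * (t * r ^ p)) := by group

end PSet

end Cfsg.Agent.RankThree
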