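import Mathlib
import Cfsg.Agent.RankThree.Basic

/-!
The minimal counterexample: commuting elements of `D` with a common non-commuting element
commute with the same elements of `D`.
-/

set_option autoImplicit false

namespace Cfsg.Agent.RankThree

variable {G : Type*} [Group G]

/-- the minimal situation -/
structure Min (p : ℕ) (D : Set G) : Prop extends PSet p D where
  nonempty : D.Nonempty
  gen : Subgroup.closure D = ⊤
  sub : ∀ S ⊆ D, Subgroup.closure S ≠ ⊤ → Group.IsSolvable (Subgroup.closure S)
  ns : ∀ N : Subgroup G, N.Normal → Group.IsSolvable N → N = ⊥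

theorem commute_closure {S : Set G} {z : G} (hz : ∀ s ∈ S, z * s = s * z) {g : G}
    (hg : g ∈ Subgroup.closure S) : z * g = g * z := by
  induction hg using Subgroup.closure_induction with
  | mem s hs => exact hz s hs
  | one => simp
  | mul x y _ _ hx hy => rw [← mul_assoc, hx, mul_assoc, hy, mul_assoc]
  | inv x _ hx =>
    rw [eq_inv_mul_iff_mul_eq, ← mul_assoc, ← hx, mul_assoc, mul_inv_cancel, mul_one]

theorem trans_closure {S : Set G} {x y z : G}
    (h1 : ∃ g ∈ Subgroup.closure S, g * x * g⁻¹ = y)
    (h2 : ∃ g ∈ Subgroup.closure S, g * y * g⁻¹ = z) :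
    ∃ g ∈ Subgroup.closure S, g * x * g⁻¹ = z := by
  obtain ⟨g, hg, rfl⟩ := h1
  obtain ⟨k, hk, rfl⟩ := h2
  exact ⟨k * g, mul_mem hk hg, by group⟩

theorem mono_closure {S T : Set G} (hST : S ⊆ T) {x y : G}
    (h1 : ∃ g ∈ Subgroup.closure S, g * x * g⁻¹ = y) :
    ∃ g ∈ Subgroup.closure T, g * x * g⁻¹ = y := by
  obtain ⟨g, hg, rfl⟩ := h1
  exact ⟨g, Subgroup.closure_mono hST hg, rfl⟩

namespace Min

variable {p : ℕ} {D : Set G}

theorem center_eq_one (h : Min p D) {z : G} (hz : ∀ g, z * g = g * z) : z = 1 := by
  have h1 : Subgroup.center G = ⊥ := by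
    apply h.ns _ inferInstance
    apply Group.isSolvable_of_comm
    rintro ⟨x, hx⟩ ⟨y, hy⟩
    exact Subtype.ext ((Subgroup.mem_center_iff.1 hy) x)
  have : z ∈ Subgroup.center G := Subgroup.mem_center_iff.2 (fun g => (hz g).symm)
  rwa [h1, Subgroup.mem_bot] at this

theorem solvable_of_central (h : Min p D) {S : Set G} (hS : S ⊆ D) {z : G} (hz1 : z ≠ 1)
    (hz : ∀ s ∈ S, z * s = s * z) : Group.IsSolvable (Subgroup.closure S) := by
  apply h.sub S hS
  intro htop
  apply hz1
  apply h.center_eq_one
  intro g
  apply commute_closure hz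
  rw [htop]
  trivial

theorem type_one [Finite G] (h : Min p D) (hp : Odd p) {a b c : G} (ha : a ∈ D) (hb : b ∈ D)
    (hc : c ∈ D) (hac : a * c = c * a) (hne : a ≠ c) (hba : b * a ≠ a * b) (hbc : b * c ≠ c * b)
    (ht : a * c ∉ D) :
    b * ((a * c) * b * (a * c)) = ((a * c) * b * (a * c)) * b := by
  by_contra h2
  obtain ⟨z, y, hz2, hza, hzb, hzc, hyD, hy, hay, hcy, hby⟩ :=
    h.type_two hp ha hb hc hac hne hba hbc h2
  have hz1 : z ≠ 1 := by
    rintro rfl
    rw [mul_one] at hy
    rw [hy] at hyD
    exact ht hyD
  have hzy : z * y = y * z := by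
    rw [hy]
    calc z * (a * c * z) = (z * a) * c * z := by group
      _ = a * (z * c) * z := by rw [hza]; group
      _ = a * c * z * z := by rw [hzc]; group
  set S : Set G := {a, b, c, y} with hS
  have hSD : S ⊆ D := by
    rintro s (rfl | rfl | rfl | rfl)
    exacts [ha, hb, hc, hyD]
  have hzS : ∀ s ∈ S, z * s = s * z := by
    rintro s (rfl | rfl | rfl | rfl)
    exacts [hza, hzb, hzc, hzy]
  have hsol := h.solvable_of_central hSD hz1 hzS
  have haS : a ∈ S := by simp [hS]
  have hbS : b ∈ S := by simp [hS]
  have hcS : c ∈ S := by simp [hS]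
  have hyS : y ∈ S := by simp [hS]
  have hab' := mono_closure (T := S) (by rintro s (rfl | rfl) <;> simp [hS])
    (h.conj_of_not_commute hp ha hb (fun e => hba e.symm))
  have hbc' := mono_closure (T := S) (by rintro s (rfl | rfl) <;> simp [hS])
    (h.conj_of_not_commute hp hb hc hbc)
  have hby' := mono_closure (T := S) (by rintro s (rfl | rfl) <;> simp [hS])
    (h.conj_of_not_commute hp hb hyD hby)
  have hacy : a * c * y = z := by
    rw [hy]
    calc a * c * (a * c * z) = a * (c * a) * c * z := by group
      _ = (a * a) * (c * c) * z := by rw [← hac]; group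
      _ = z := by rw [h.sq a ha, h.sq c hc, one_mul, one_mul]
  have := commute_of_closure_solvable hsol haS hcS hyS hbS (h.sq a ha) (by
    rintro s (rfl | rfl | rfl | rfl)
    · exact ⟨1, one_mem _, by simp⟩
    · exact hab'
    · exact trans_closure hab' hbc'
    · exact trans_closure hab' hby') hac hay (by rw [hacy]; exact hzS)
  exact hba this.symm

/-- the abstract configuration `a, at, au, atu` -/
theorem quad [Finite G] (h : Min p D) (hp : Odd p) {a t u e : G} (ha : a ∈ D) (he : e ∈ D)
    (hat : a * t ∈ D) (hau : a * u ∈ D) (hatu : a * (t * u) ∈ D)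
    (htt : t * t = 1) (huu : u * u = 1)
    (cat : Commute a t) (cau : Commute a u) (ctu : Commute t u) (hu1 : u ≠ 1) (htu : t * u ≠ 1)
    (cea : Commute e a) : Commute e t := by
  by_contra het
  obtain ⟨k, hk⟩ := id hp
  have haa := h.sq a ha
  have hpow : ∀ x : G, x * x = 1 → x ^ p = x := by
    intro x hx
    rw [hk, pow_succ, pow_mul, pow_two, hx, one_pow, one_mul]
  have key : ∀ w : G, Commute a w → a * w ∈ D → ¬ Commute e w → (e * w) ^ p = a := by
    intro w haw hawD hew
    have h1 : ¬ (e * (a * w) = (a * w) * e) := by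
      intro h2
      apply hew
      have h3 : Commute e (a * w) := h2
      have h4 : Commute e (a * (a * w)) := cea.mul_right h3
      rwa [← mul_assoc, haa, one_mul] at h4
    have h2 := h.pow_eq_one he hawD h1
    have h3 : e * (a * w) = a * (e * w) := by
      rw [← mul_assoc, cea.eq, mul_assoc]
    have h4 : Commute a (e * w) := cea.symm.mul_right haw
    rw [h3, h4.mul_pow, hpow a haa] at h2
    have h5 := eq_inv_of_mul_eq_one_right h2
    rw [h5, h.inv ha]
  have k1 := key t cat hat het
  have hwtu : (t * u) * (t * u) = 1 := by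
    calc (t * u) * (t * u) = t * (u * t) * u := by group
      _ = (t * t) * (u * u) := by rw [← ctu.eq]; group
      _ = 1 := by rw [htt, huu, mul_one]
  -- `e` does not commute with `u`
  have heu : ¬ Commute e u := by
    intro hc
    have h1 : ¬ Commute e (t * u) := by
      intro h2
      apply het
      have h3 := h2.mul_right hc
      rwa [mul_assoc, huu, mul_one] at h3
    have h2 := key (t * u) (cat.mul_right cau) hatu h1
    have h3 : Commute (e * t) u := hc.mul_left ctu
    rw [← mul_assoc, h3.mul_pow, k1, hpow u huu] at h2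
    exact hu1 (by simpa using h2)
  have hetu : ¬ Commute e (t * u) := by
    intro hc
    have h1 := key u cau hau heu
    have h3 : Commute (e * t) (t * u) := hc.mul_left ((Commute.refl t).mul_right ctu)
    have h4 : e * u = (e * t) * (t * u) := by
      calc e * u = e * (t * t) * u := by rw [htt, mul_one]
        _ = _ := by group
    rw [h4, h3.mul_pow, k1, hpow _ hwtu] at h1
    exact htu (by simpa using h1)
  set S : Set G := {a * t, e, a * u, a * (t * u)} with hS
  have hSD : S ⊆ D := by
    rintro s (rfl | rfl | rfl | rfl)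
    exacts [hat, he, hau, hatu]
  have hcS : ∀ s ∈ S, a * s = s * a := by
    rintro s (rfl | rfl | rfl | rfl)
    · exact ((Commute.refl a).mul_right cat).eq
    · exact cea.symm.eq
    · exact ((Commute.refl a).mul_right cau).eq
    · exact ((Commute.refl a).mul_right (cat.mul_right cau)).eq
  have hsol := h.solvable_of_central hSD (h.ne a ha) hcS
  have haw : ∀ w : G, ¬ Commute e w → ¬ (e * (a * w) = (a * w) * e) := by
    intro w hew h2
    apply hew
    have h3 : Commute e (a * w) := h2
    have h4 : Commute e (a * (a * w)) := cea.mul_right h3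
    rwa [← mul_assoc, haa, one_mul] at h4
  have c1 := mono_closure (T := S) (by rintro s (rfl | rfl) <;> simp [hS])
    (h.conj_of_not_commute hp hat he (fun e => haw t het e.symm))
  have c2 := mono_closure (T := S) (by rintro s (rfl | rfl) <;> simp [hS])
    (h.conj_of_not_commute hp he hau (haw u heu))
  have c3 := mono_closure (T := S) (by rintro s (rfl | rfl) <;> simp [hS])
    (h.conj_of_not_commute hp he hatu (haw (t * u) hetu))
  have cc1 : Commute (a * t) (a * u) :=
    ((Commute.refl a).mul_left cat.symm).mul_right (cau.mul_left ctu)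
  have cc2 : Commute (a * t) (a * (t * u)) :=
    ((Commute.refl a).mul_left cat.symm).mul_right
      ((cat.mul_right cau).mul_left ((Commute.refl t).mul_right ctu))
  have hprod : a * t * (a * u) * (a * (t * u)) = a := by
    calc a * t * (a * u) * (a * (t * u)) = a * (t * a) * (u * a) * (t * u) := by group
      _ = (a * a) * t * a * (u * t) * u := by rw [← cat.eq, ← cau.eq]; group
      _ = (a * a) * (t * a) * t * (u * u) := by rw [← ctu.eq]; group
      _ = a := by rw [haa, huu, ← cat.eq, one_mul, mul_one, mul_assoc, htt, mul_one]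
  have := commute_of_closure_solvable hsol (a := a * t) (c := a * u) (y := a * (t * u)) (b := e)
    (by simp [hS]) (by simp [hS]) (by simp [hS]) (by simp [hS]) (h.sq _ hat) (by
    rintro s (rfl | rfl | rfl | rfl)
    · exact ⟨1, one_mem _, by simp⟩
    · exact c1
    · exact trans_closure c1 c2
    · exact trans_closure c1 c3) cc1.eq cc2.eq (by rw [hprod]; exact hcS)
  exact haw t het this.symm

/-- In the minimal situation: `t = a c ∉ D`, `b` not commuting with `a` and `c`. Then each
element of `D` commuting with `a` commutes with `c`. -/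
theorem twin_type_one [Finite G] (h : Min p D) (hp : Odd p) (hp3 : p.Coprime 3) {a b c e : G}
    (ha : a ∈ D) (hb : b ∈ D) (hc : c ∈ D) (he : e ∈ D) (hac : a * c = c * a) (hne : a ≠ c)
    (hba : b * a ≠ a * b) (hbc : b * c ≠ c * b) (ht : a * c ∉ D) (hea : Commute e a) :
    Commute e c := by
  have haa := h.sq a ha
  have hbb := h.sq b hb
  have hcc := h.sq c hc
  have hai := h.inv ha
  have hbi := h.inv hb
  have hci := h.inv hc
  have htt : (a * c) * (a * c) = 1 := by
    calc (a * c) * (a * c) = a * (c * a) * c := by group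
      _ = (a * a) * (c * c) := by rw [← hac]; group
      _ = 1 := by rw [haa, hcc, mul_one]
  have hbt : b * (a * c) ≠ (a * c) * b := h.step0 hp ha hc hb hne hba hbc
  -- the elements `b' = b a b`
  have hb'D : b * a * b ∈ D := h.conj' ha hb
  have hpow2 : ∀ g x : G, g ^ p = 1 → Commute (g * g) x → Commute g x := by
    intro g x hg hc
    obtain ⟨k, hk⟩ := hp
    have h1 := hc.pow_left (k + 1)
    rw [← pow_two, ← pow_mul, show 2 * (k + 1) = p + 1 by omega, pow_succ, hg, one_mul] at h1
    exact h1
  have habp : (a * b) ^ p = 1 := h.pow_eq_one ha hb (fun e => hba e.symm)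
  have hb'a : (b * a * b) * a ≠ a * (b * a * b) := by
    intro h1
    have h2 : (a * b) * (a * b) = ((a * b) * (a * b))⁻¹ := by
      rw [mul_inv_rev, mul_inv_rev, hai, hbi]
      calc a * b * (a * b) = a * (b * a * b) := by group
        _ = _ := by rw [← h1]; group
    have h3 : (a * b) * (a * b) * ((a * b) * (a * b)) = 1 := by
      nth_rewrite 1 [h2]
      rw [inv_mul_cancel]
    have h4 : a * b = 1 := by
      have h5 : (a * b) ^ 4 = 1 := by
        rw [← h3]; simp only [pow_succ, pow_zero, one_mul, mul_assoc]
      have h6 : orderOf (a * b) ∣ Nat.gcd 4 p :=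
        Nat.dvd_gcd (orderOf_dvd_of_pow_eq_one h5) (orderOf_dvd_of_pow_eq_one habp)
      have h7 : Nat.gcd 4 p = 1 := by
        have : Nat.Coprime (2 ^ 2) p := Nat.Coprime.pow_left 2 ((Nat.coprime_two_left).2 hp)
        exact this
      rw [h7] at h6
      exact orderOf_eq_one_iff.1 (Nat.dvd_one.1 h6)
    apply hba
    have h5 : b = a⁻¹ := eq_inv_of_mul_eq_one_right h4
    rw [h5, hai]
  have hb'c : (b * a * b) * c ≠ c * (b * a * b) := by
    intro h1
    have h2 : Commute (b * a * b) c := h1
    have h3 : Commute (a * (b * a * b)) c := Commute.mul_left hac h2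
    have h4 : Commute ((a * b) * (a * b)) c := by
      have : (a * b) * (a * b) = a * (b * a * b) := by group
      rw [this]; exact h3
    have h5 := hpow2 _ _ habp h4
    have h6 : Commute (a * (a * b)) c := Commute.mul_left hac h5
    rw [← mul_assoc, haa, one_mul] at h6
    exact hbc h6.eq
  have hb't := h.step0 hp ha hc hb'D hne hb'a hb'c
  have hT1 := h.type_one hp ha hb hc hac hne hba hbc ht
  have hT2 := h.type_one hp ha hb'D hc hac hne hb'a hb'c ht
  have cat : Commute a (a * c) := (Commute.refl a).mul_right hac
  obtain ⟨t, ht'⟩ : ∃ t, t = a * c := ⟨_, rfl⟩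
  rw [← ht'] at htt hbt hb't hT1 hT2 cat
  obtain ⟨b', hb'⟩ : ∃ b', b' = b * a * b := ⟨_, rfl⟩
  rw [← hb'] at hb't hT2 hb'D
  have hti : t⁻¹ = t := inv_eq_of_mul_eq_one_left htt
  have hb'b' := h.sq _ hb'D
  -- commutation from type one
  have hcomm : ∀ x : G, x * (t * x * t) = (t * x * t) * x → Commute t (x * t * x) := by
    intro x hx
    have : t * (x * t * x) = (x * t * x) * t := by
      calc t * (x * t * x) = (t * x * t) * x := by group
        _ = x * (t * x * t) := hx.symm
        _ = (x * t * x) * t := by group
    exact this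
  have c1 : Commute t (b * t * b) := hcomm b hT1
  have c2 : Commute t (b' * t * b') := hcomm b' hT2
  obtain ⟨u1, hu1⟩ : ∃ u, u = b * t * b := ⟨_, rfl⟩
  obtain ⟨u2, hu2⟩ : ∃ u, u = a * u1 * a := ⟨_, rfl⟩
  rw [← hu1] at c1
  have hata : a * t * a = t := by rw [cat.eq, mul_assoc, haa, mul_one]
  have hconjc : ∀ g x y : G, g * g = 1 → Commute x y → Commute (g * x * g) (g * y * g) := by
    intro g x y hg hc
    have h1 : (g * x * g) * (g * y * g) = g * (x * y) * g := by
      calc (g * x * g) * (g * y * g) = g * x * (g * g) * y * g := by group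
        _ = _ := by rw [hg]; group
    have h2 : (g * y * g) * (g * x * g) = g * (y * x) * g := by
      calc (g * y * g) * (g * x * g) = g * y * (g * g) * x * g := by group
        _ = _ := by rw [hg]; group
    change (g * x * g) * (g * y * g) = (g * y * g) * (g * x * g)
    rw [h1, h2, hc.eq]
  have c3 : Commute t u2 := by
    have := hconjc a _ _ haa c1
    rwa [hata, ← hu2] at this
  have c4 : Commute u1 u2 := by
    have h1 := hconjc b _ _ hbb c2
    rw [← hu1] at h1
    have h2 : b * (b' * t * b') * b = u2 := by
      rw [hu2, hu1, hb']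
      calc b * (b * a * b * t * (b * a * b)) * b = (b * b) * a * b * t * b * a * (b * b) := by
            group
        _ = _ := by rw [hbb]; group
    rwa [h2] at h1
  have huu1 : u1 * u1 = 1 := by
    rw [hu1]
    calc b * t * b * (b * t * b) = b * t * (b * b) * t * b := by group
      _ = b * (t * t) * b := by rw [hbb]; group
      _ = 1 := by rw [htt, mul_one, hbb]
  have huu2 : u2 * u2 = 1 := by
    rw [hu2]
    calc a * u1 * a * (a * u1 * a) = a * u1 * (a * a) * u1 * a := by group
      _ = a * (u1 * u1) * a := by rw [haa]; group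
      _ = 1 := by rw [huu1, mul_one, haa]
  have hu1t : u1 ≠ t := by
    intro h1
    apply hbt
    calc b * t = b * t * (b * b) := by rw [hbb, mul_one]
      _ = u1 * b := by rw [hu1]; group
      _ = t * b := by rw [h1]
  have hu12 : u1 * u2 ≠ 1 := by
    intro h1
    apply hb't
    have h2 : u1 = u2 := by
      have := eq_inv_of_mul_eq_one_left h1
      rw [this]
      exact inv_eq_of_mul_eq_one_left huu2
    have h3 : t = b' * t * b' := by
      have h4 : b * u1 * b = t := by
        rw [hu1]
        calc b * (b * t * b) * b = (b * b) * t * (b * b) := by group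
          _ = t := by rw [hbb]; group
      have h5 : b * u2 * b = b' * t * b' := by
        rw [hu2, hu1, hb']; group
      rw [← h5, ← h2, h4]
    calc b' * t = b' * t * (b' * b') := by rw [hb'b', mul_one]
      _ = (b' * t * b') * b' := by group
      _ = t * b' := by rw [← h3]
  have htu : t * (u1 * u2) ≠ 1 := by
    intro h1
    -- `u1 u2 = t`
    have h2 : u1 * u2 = t := by
      have := eq_inv_of_mul_eq_one_right h1
      rw [this, hti]
    -- conjugating by `b a`: `(b' t b') t = u1`
    have h3 : (b' * t * b') * t = u1 := by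
      have h4 : b * (a * (u1 * u2) * a) * b = b * (a * t * a) * b := by rw [h2]
      rw [hata, ← hu1] at h4
      rw [← h4]
      have h5 : b * (a * (u1 * u2) * a) * b = (b * (a * u1 * a) * b) * (b * (a * u2 * a) * b) := by
        calc b * (a * (u1 * u2) * a) * b = b * (a * u1 * (1 : G) * u2 * a) * b := by group
          _ = b * (a * u1 * (a * (1 : G) * a) * u2 * a) * b := by rw [mul_one a, haa]
          _ = b * (a * u1 * (a * (b * b) * a) * u2 * a) * b := by rw [hbb]
          _ = _ := by group
      rw [h5]
      have h6 : b * (a * u1 * a) * b = b' * t * b' := by rw [hu1, hb']; group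
      have h7 : b * (a * u2 * a) * b = t := by
        rw [hu2]
        calc b * (a * (a * u1 * a) * a) * b = b * ((a * a) * u1 * (a * a)) * b := by group
          _ = b * u1 * b := by rw [haa]; group
          _ = (b * b) * t * (b * b) := by rw [hu1]; group
          _ = t := by rw [hbb]; group
      rw [h6, h7]
    have h4 : b' * t * b' = u2 := by
      have h5 : b' * t * b' = u1 * t := by
        rw [← h3, mul_assoc _ t t, htt, mul_one]
      rw [h5, ← h2, ← mul_assoc, huu1, one_mul]
    -- so `(b a)^3` commutes with `t`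
    have h5 : Commute ((b * a) ^ 3) t := by
      have h6 : (b * a) ^ 3 * t * ((b * a) ^ 3)⁻¹ = t := by
        have h7 : (b * a) ^ 3 * t * ((b * a) ^ 3)⁻¹ = b * a * (b' * t * b') * a * b := by
          rw [hb', pow_succ, pow_two]
          simp only [mul_inv_rev, hai, hbi]
          calc b * a * (b * a) * (b * a) * t * (a * b * (a * b * (a * b))) =
              b * a * (b * a * b * (a * t * a) * (b * a * b)) * a * b := by group
            _ = _ := by rw [hata]
        rw [h7, h4, hu2]
        calc b * a * (a * u1 * a) * a * b = b * (a * a) * u1 * (a * a) * b := by group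
          _ = b * u1 * b := by rw [haa]; group
          _ = (b * b) * t * (b * b) := by rw [hu1]; group
          _ = t := by rw [hbb]; group
      rw [mul_inv_eq_iff_eq_mul] at h6
      exact h6
    have hbap : (b * a) ^ p = 1 := mul_pow_swap haa hbb habp
    have h6 : Commute (b * a) t := by
      have h7 : Commute ((b * a) ^ p) t := by rw [hbap]; exact Commute.one_left t
      have h8 : b * a ∈ Subgroup.centralizer ({t} : Set G) := by
        have h9 : (b * a) ^ 3 ∈ Subgroup.centralizer ({t} : Set G) := by
          rw [Subgroup.mem_centralizer_singleton_iff]; exact h5.eq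
        have h10 : (b * a) ^ p ∈ Subgroup.centralizer ({t} : Set G) := by
          rw [Subgroup.mem_centralizer_singleton_iff]; exact h7.eq
        have h11 : (b * a) ^ ((p : ℤ) * Nat.gcdA p 3 + (3 : ℤ) * Nat.gcdB p 3) = b * a := by
          have := Nat.gcd_eq_gcd_ab p 3
          rw [hp3] at this
          have h12 : (p : ℤ) * Nat.gcdA p 3 + (3 : ℤ) * Nat.gcdB p 3 = 1 := by
            rw [show ((3 : ℕ) : ℤ) = 3 by rfl] at this
            rw [← this]
            rfl
          rw [h12, zpow_one]
        rw [← h11, zpow_add, zpow_mul, zpow_mul, zpow_natCast]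
        refine mul_mem (zpow_mem h10 _) (zpow_mem ?_ _)
        have : (b * a) ^ (3 : ℤ) = (b * a) ^ 3 := by norm_cast
        rw [this]
        exact h9
      rw [Subgroup.mem_centralizer_singleton_iff] at h8
      exact h8
    apply hu1t
    rw [hu1]
    calc b * t * b = b * (a * t * a) * b := by rw [hata]
      _ = (b * a) * t * (a * b) := by group
      _ = t * ((b * a) * (a * b)) := by rw [h6.eq]; group
      _ = t * (b * (a * a) * b) := by group
      _ = t := by rw [haa, mul_one, hbb, mul_one]
  -- memberships
  have hatD : a * t ∈ D := by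
    rw [ht', ← mul_assoc, haa, one_mul]; exact hc
  have hu1i : u1⁻¹ = u1 := inv_eq_of_mul_eq_one_left huu1
  have hauD : a * (u1 * u2) ∈ D := by
    have h1 : a * (u1 * u2) = u1 * a * u1⁻¹ := by
      rw [hu1i, c4.eq, hu2]
      calc a * (a * u1 * a * u1) = (a * a) * u1 * a * u1 := by group
        _ = _ := by rw [haa]; group
    rw [h1]
    exact h.conj a ha _
  have hatuD : a * (t * (u1 * u2)) ∈ D := by
    have h1 : a * (t * (u1 * u2)) = u1 * c * u1⁻¹ := by
      have hca : c = a * t := by rw [ht', ← mul_assoc, haa, one_mul]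
      rw [hu1i, hca]
      have h3 : a * (u1 * u2) = u1 * a * u1 := by
        rw [c4.eq, hu2]
        calc a * (a * u1 * a * u1) = (a * a) * u1 * a * u1 := by group
          _ = _ := by rw [haa]; group
      calc a * (t * (u1 * u2)) = (a * t) * (u1 * u2) := by group
        _ = t * (a * (u1 * u2)) := by rw [cat.eq]; group
        _ = (t * u1) * a * u1 := by rw [h3]; group
        _ = u1 * (t * a) * u1 := by rw [c1.eq]; group
        _ = u1 * (a * t) * u1 := by rw [cat.eq]
    rw [h1]
    exact h.conj c hc _
  have hcau : Commute a (u1 * u2) := by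
    have h3 : a * (u1 * u2) = u1 * a * u1 := by
      rw [c4.eq, hu2]
      calc a * (a * u1 * a * u1) = (a * a) * u1 * a * u1 := by group
        _ = _ := by rw [haa]; group
    have h4 : (u1 * u2) * a = u1 * a * u1 := by
      rw [hu2]
      calc u1 * (a * u1 * a) * a = u1 * a * u1 * (a * a) := by group
        _ = _ := by rw [haa, mul_one]
    exact h3.trans h4.symm
  have huu12 : (u1 * u2) * (u1 * u2) = 1 := by
    calc (u1 * u2) * (u1 * u2) = u1 * (u2 * u1) * u2 := by group
      _ = (u1 * u1) * (u2 * u2) := by rw [← c4.eq]; group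
      _ = 1 := by rw [huu1, huu2, mul_one]
  have hfin := h.quad hp ha he hatD hauD hatuD htt huu12 cat hcau (c1.mul_right c3) hu12 htu hea
  have hca : c = a * t := by rw [ht', ← mul_assoc, haa, one_mul]
  rw [hca]
  exact hea.mul_right hfin

/-- commuting elements with a common non-commuting element are twins -/
theorem twin [Finite G] (h : Min p D) (hp : Odd p) (hp3 : p.Coprime 3) {a b c e : G}
    (ha : a ∈ D) (hb : b ∈ D) (hc : c ∈ D) (he : e ∈ D) (hac : a * c = c * a)
    (hba : b * a ≠ a * b) (hbc : b * c ≠ c * b) (hea : e * a = a * e) : e * c = c * e := by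
  by_cases hne : a = c
  · subst hne; exact hea
  by_cases ht : a * c ∈ D
  · exact h.twin_of_mem hp ha hc he hac ht hea
  · exact (h.twin_type_one hp hp3 ha hb hc he hac hne hba hbc ht hea).eq

end Min

end Cfsg.Agent.RankThree
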