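import Mathlib
import Cfsg.Agent.RankThree.Twin
import Cfsg.Agent.H4.BaerSuzuki

/-!
The minimal counterexample: commuting is an equivalence relation on `D` and products of distinct
commuting elements of `D` lie in `D`.
-/

set_option autoImplicit false

namespace Cfsg.Agent.RankThree

variable {G : Type*} [Group G]

theorem isPGroup_two_of_pow {s t : G} (hs : s * s = 1) (ht : t * t = 1) {k : ℕ}
    (h : (s * t) ^ (2 ^ k) = 1) : IsPGroup 2 ↥(Subgroup.closure ({s, t} : Set G)) := by
  have hti : t⁻¹ = t := inv_eq_of_mul_eq_one_left ht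
  have hsi : s⁻¹ = s := inv_eq_of_mul_eq_one_left hs
  have h1 : IsPGroup 2 ↥(Subgroup.zpowers (s * t)) := by
    rintro ⟨x, hx⟩
    obtain ⟨i, rfl⟩ := Subgroup.mem_zpowers_iff.1 hx
    refine ⟨k, Subtype.ext ?_⟩
    change ((s * t) ^ i) ^ (2 ^ k) = 1
    rw [← zpow_natCast, ← zpow_mul, mul_comm, zpow_mul, zpow_natCast, h, one_zpow]
  have h2 : IsPGroup 2 ↥(Subgroup.zpowers t) := by
    rintro ⟨x, hx⟩
    obtain ⟨i, rfl⟩ := Subgroup.mem_zpowers_iff.1 hx
    refine ⟨1, Subtype.ext ?_⟩
    change (t ^ i) ^ (2 ^ 1) = 1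
    rw [pow_one, ← zpow_natCast, ← zpow_mul, mul_comm, zpow_mul, zpow_natCast, pow_two, ht,
      one_zpow]
  have h3 : Subgroup.zpowers t ≤ Subgroup.normalizer (Subgroup.zpowers (s * t) : Set G) := by
    rw [Subgroup.zpowers_le, Subgroup.mem_normalizer_iff]
    have h4 : t * (s * t) * t⁻¹ = (s * t)⁻¹ := by
      rw [mul_inv_rev, hti, hsi]
      calc t * (s * t) * t = t * s * (t * t) := by group
        _ = t * s := by rw [ht, mul_one]
    have hf : ∀ x ∈ Subgroup.zpowers (s * t), t * x * t⁻¹ ∈ Subgroup.zpowers (s * t) := by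
      intro x hx
      obtain ⟨i, rfl⟩ := Subgroup.mem_zpowers_iff.1 hx
      rw [← conj_zpow, h4]
      exact Subgroup.zpow_mem _ (inv_mem (Subgroup.mem_zpowers _)) _
    intro x
    constructor
    · exact hf x
    · intro hx
      have h5 := hf _ hx
      have h6 : t * (t * x * t⁻¹) * t⁻¹ = x := by
        rw [hti]
        calc t * (t * x * t) * t = (t * t) * x * (t * t) := by group
          _ = x := by rw [ht, one_mul, mul_one]
      rwa [h6] at h5
  have h7 := IsPGroup.to_sup_of_normal_right' h2 h1 h3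
  apply h7.to_le
  rw [Subgroup.closure_le]
  intro x hx
  rcases hx with hx | hx
  · have : x = (s * t) * t := by rw [hx, mul_assoc, ht, mul_one]
    rw [this]
    exact mul_mem (Subgroup.mem_sup_right (Subgroup.mem_zpowers _))
      (Subgroup.mem_sup_left (Subgroup.mem_zpowers _))
  · rw [hx]
    exact Subgroup.mem_sup_left (Subgroup.mem_zpowers _)

namespace Min

variable {p : ℕ} {D : Set G}

/-- distance at most two in the non-commuting graph -/
def Near (D : Set G) (x y : G) : Prop :=
  x = y ∨ x * y ≠ y * x ∨ ∃ b ∈ D, b * x ≠ x * b ∧ b * y ≠ y * b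

theorem near_step [Finite G] (h : Min p D) (hp : Odd p) (hp3 : p.Coprime 3) {x y z : G}
    (hx : x ∈ D) (hy : y ∈ D) (hz : z ∈ D) (hxy : Near D x y) (hyz : y * z ≠ z * y) :
    Near D x z := by
  by_cases hxy' : x * y = y * x
  · rcases hxy with rfl | h1 | ⟨b, hb, hbx, hby⟩
    · exact Or.inr (Or.inl hyz)
    · exact absurd hxy' h1
    · right; left
      intro hxz
      have := h.twin hp hp3 hx hb hy hz hxy' hbx hby hxz.symm
      exact hyz this.symm
  · by_cases hxz : x * z = z * x
    · right; right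
      exact ⟨y, hy, fun e => hxy' e.symm, hyz⟩
    · exact Or.inr (Or.inl hxz)

theorem near [Finite G] (h : Min p D) (hp : Odd p) (hp3 : p.Coprime 3) {x y : G}
    (hx : x ∈ D) (hy : y ∈ D) : Near D x y := by
  by_contra hnear
  set S : Set G := {d | d ∈ D ∧ Near D x d} with hS
  have hSD : S ⊆ D := fun d hd => hd.1
  have hcomm : ∀ d ∈ S, ∀ e ∈ D, e ∉ S → e * d = d * e := by
    intro d hd e he heS
    by_contra hne
    exact heS ⟨he, h.near_step hp hp3 hx hd.1 he hd.2 (fun e' => hne e'.symm)⟩
  have hyS : y ∉ S := fun h' => hnear h'.2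
  have hsol : Group.IsSolvable (Subgroup.closure S) :=
    h.solvable_of_central hSD (h.ne y hy) (fun d hd => hcomm d hd y hy hyS)
  have hconjS : ∀ g ∈ D, ∀ d ∈ S, g * d * g⁻¹ ∈ S := by
    intro g hg d hd
    by_cases hgS : g ∈ S
    · by_cases hgd : g * d = d * g
      · rw [hgd, mul_assoc, mul_inv_cancel, mul_one]; exact hd
      · refine ⟨h.conj d hd.1 g, ?_⟩
        apply h.near_step hp hp3 hx hg (h.conj d hd.1 g) hgS.2
        intro h1
        apply hgd
        have h2 : g * (g * d) * g⁻¹ = g * d := by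
          calc g * (g * d) * g⁻¹ = g * (g * d * g⁻¹) := by group
            _ = (g * d * g⁻¹) * g := h1
            _ = g * d := by group
        have h3 : g * (g * d) = g * (d * g) := by
          rw [mul_inv_eq_iff_eq_mul] at h2
          rw [h2, mul_assoc]
        exact mul_left_cancel h3
    · rw [hcomm d hd g hg hgS, mul_assoc, mul_inv_cancel, mul_one]; exact hd
  have hnorm : (Subgroup.closure S).Normal := by
    have h1 : ∀ g ∈ Subgroup.closure D, g ∈ Subgroup.normalizer (Subgroup.closure S : Set G) := by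
      intro g hg
      have h2 : Subgroup.closure D ≤ Subgroup.normalizer (Subgroup.closure S : Set G) := by
        rw [Subgroup.closure_le]
        intro d hd
        have hf : ∀ u ∈ D, ∀ v ∈ Subgroup.closure S, u * v * u⁻¹ ∈ Subgroup.closure S := by
          intro u hu v hv
          induction hv using Subgroup.closure_induction with
          | mem s hs => exact Subgroup.subset_closure (hconjS u hu s hs)
          | one => simp
          | mul a b _ _ ha hb =>
            rw [show u * (a * b) * u⁻¹ = (u * a * u⁻¹) * (u * b * u⁻¹) by group]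
            exact mul_mem ha hb
          | inv a _ ha =>
            rw [show u * a⁻¹ * u⁻¹ = (u * a * u⁻¹)⁻¹ by group]
            exact inv_mem ha
        rw [SetLike.mem_coe, Subgroup.mem_normalizer_iff]
        intro v
        constructor
        · exact hf d hd v
        · intro hv
          have h5 := hf d hd _ hv
          have hdi := h.inv hd
          have h6 : d * (d * v * d⁻¹) * d⁻¹ = v := by
            rw [hdi]
            calc d * (d * v * d) * d = (d * d) * v * (d * d) := by group
              _ = v := by rw [h.sq d hd, one_mul, mul_one]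
          rwa [h6] at h5
      exact h2 hg
    rw [← Subgroup.normalizer_eq_top_iff, eq_top_iff]
    intro g _
    apply h1
    rw [h.gen]
    trivial
  have hbot := h.ns _ hnorm hsol
  have hxS : x ∈ Subgroup.closure S := Subgroup.subset_closure ⟨hx, Or.inl rfl⟩
  rw [hbot, Subgroup.mem_bot] at hxS
  exact h.ne x hx hxS

/-- commuting is transitive on `D` -/
theorem comm_trans [Finite G] (h : Min p D) (hp : Odd p) (hp3 : p.Coprime 3) {x y z : G}
    (hx : x ∈ D) (hy : y ∈ D) (hz : z ∈ D) (hxy : x * y = y * x) (hyz : y * z = z * y) :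
    x * z = z * x := by
  rcases h.near hp hp3 hx hy with rfl | h1 | ⟨b, hb, hbx, hby⟩
  · exact hyz
  · exact absurd hxy h1
  · exact (h.twin hp hp3 hy hb hx hz hxy.symm hby hbx hyz.symm).symm

/-- products of distinct commuting elements lie in `D` -/
theorem mulD_mem [Finite G] (h : Min p D) (hp : Odd p) (hp3 : p.Coprime 3) {x y : G}
    (hx : x ∈ D) (hy : y ∈ D) (hxy : x * y = y * x) (hne : x ≠ y) : x * y ∈ D := by
  by_contra ht
  have hxx := h.sq x hx
  have hyy := h.sq y hy
  have htt : (x * y) * (x * y) = 1 := by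
    calc (x * y) * (x * y) = x * (y * x) * y := by group
      _ = (x * x) * (y * y) := by rw [← hxy]; group
      _ = 1 := by rw [hxx, hyy, mul_one]
  have hti : (x * y)⁻¹ = x * y := inv_eq_of_mul_eq_one_left htt
  have key : ∀ d ∈ D, d * ((x * y) * d * (x * y)⁻¹) = ((x * y) * d * (x * y)⁻¹) * d := by
    intro d hd
    rw [hti]
    by_cases hdx : d * x = x * d
    · have hdy : d * y = y * d := h.comm_trans hp hp3 hd hx hy hdx hxy
      have h1 : Commute d (x * y) := Commute.mul_right hdx hdy
      have h2 : x * y * d * (x * y) = d := by rw [← h1.eq, mul_assoc, htt, mul_one]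
      rw [h2]
    · have hdy : d * y ≠ y * d := by
        intro h1
        exact hdx (h.comm_trans hp hp3 hd hy hx h1 hxy.symm)
      exact h.type_one hp hx hd hy hxy hne hdx hdy ht
  have keyg : ∀ g : G, ∀ d ∈ D, d * ((g * (x * y) * g⁻¹) * d * (g * (x * y) * g⁻¹)⁻¹) =
      ((g * (x * y) * g⁻¹) * d * (g * (x * y) * g⁻¹)⁻¹) * d := by
    intro g d hd
    have h1 := key (g⁻¹ * d * g) (by simpa using h.conj d hd g⁻¹)
    have h2 := congrArg (fun u => g * u * g⁻¹) h1
    calc d * ((g * (x * y) * g⁻¹) * d * (g * (x * y) * g⁻¹)⁻¹) =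
        g * (g⁻¹ * d * g * (x * y * (g⁻¹ * d * g) * (x * y)⁻¹)) * g⁻¹ := by group
      _ = g * (x * y * (g⁻¹ * d * g) * (x * y)⁻¹ * (g⁻¹ * d * g)) * g⁻¹ := h2
      _ = _ := by group
  have hcomm4 : ∀ g : G, (((x * y) * (g * (x * y) * g⁻¹))) ^ (2 ^ 2) = 1 := by
    intro g
    obtain ⟨s, hs⟩ : ∃ s, s = g * (x * y) * g⁻¹ := ⟨_, rfl⟩
    have hss : s * s = 1 := by
      rw [hs]
      calc g * (x * y) * g⁻¹ * (g * (x * y) * g⁻¹) = g * ((x * y) * (x * y)) * g⁻¹ := by group
        _ = 1 := by rw [htt]; group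
    have hsi : s⁻¹ = s := inv_eq_of_mul_eq_one_left hss
    have hkx := keyg g x hx
    have hky := keyg g y hy
    rw [← hs] at hkx hky ⊢
    have hsx : s * x * s⁻¹ ∈ D := h.conj x hx s
    have hsy : s * y * s⁻¹ ∈ D := h.conj y hy s
    have c1 : Commute x (s * x * s⁻¹) := hkx
    have c2 : Commute y (s * y * s⁻¹) := hky
    have c3 : Commute y (s * x * s⁻¹) := h.comm_trans hp hp3 hy hx hsx hxy.symm hkx
    have c4 : Commute x (s * y * s⁻¹) := h.comm_trans hp hp3 hx hy hsy hxy hky
    have c5 : Commute (x * y) (s * (x * y) * s) := by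
      have h1 : s * (x * y) * s = (s * x * s⁻¹) * (s * y * s⁻¹) := by
        rw [hsi]
        calc s * (x * y) * s = s * x * (1 : G) * y * s := by group
          _ = _ := by rw [← hss]; group
      rw [h1]
      exact (c1.mul_left c3).mul_right (c4.mul_left c2)
    have c6 : (s * (x * y) * s) * (s * (x * y) * s) = 1 := by
      calc (s * (x * y) * s) * (s * (x * y) * s) = s * (x * y) * (s * s) * (x * y) * s := by group
        _ = s * ((x * y) * (x * y)) * s := by rw [hss]; group
        _ = 1 := by rw [htt, mul_one, hss]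
    have h2 : ((x * y) * s) * ((x * y) * s) = (x * y) * (s * (x * y) * s) := by group
    have h3 : ((x * y) * s) ^ (2 ^ 2) = (((x * y) * s) * ((x * y) * s)) ^ 2 := by
      rw [← pow_two, ← pow_mul]; norm_num
    rw [h3, h2, c5.mul_pow, pow_two, pow_two, htt, c6, one_mul]
  obtain ⟨N, hN, hN2, hxyN⟩ := Cfsg.Agent.H4.baer_suzuki_elem (p := 2) (x * y) (by
    intro g
    apply isPGroup_two_of_pow htt _ (hcomm4 g)
    calc g * (x * y) * g⁻¹ * (g * (x * y) * g⁻¹) = g * ((x * y) * (x * y)) * g⁻¹ := by group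
        _ = 1 := by rw [htt]; group)
  have hNs : Group.IsSolvable N := by
    have : Group.IsNilpotent N := hN2.isNilpotent
    infer_instance
  have := h.ns N hN hNs
  rw [this, Subgroup.mem_bot] at hxyN
  apply hne
  have := eq_inv_of_mul_eq_one_left hxyN
  rw [this, h.inv hy]

end Min

end Cfsg.Agent.RankThree
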